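import Cfsg.Agent.H7.LieAut

/-! Lie ring lemmas: Kreknin's theorem with an ad-nilpotent zero component, and nilpotent action
of a solvable subring spanned by ad-nilpotent pieces. -/

set_option autoImplicit false

namespace Cfsg.Agent.H9.Acc

open H7.Krek
open scoped TensorProduct

universe u

section basic

variable {L : Type*} [LieRing L]

/-- derived series of an additive subgroup -/
def dU (K : AddSubgroup L) : ℕ → AddSubgroup L
  | 0 => K
  | s + 1 => brU (dU K s) (dU K s)

theorem dU_succ' (K : AddSubgroup L) (s : ℕ) : dU (brU K K) s = dU K (s + 1) := by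
  induction s with
  | zero => rfl
  | succ s ih => rw [dU, ih]; rfl

theorem dU_mono {K K' : AddSubgroup L} (h : K ≤ K') (s : ℕ) : dU K s ≤ dU K' s := by
  induction s with
  | zero => exact h
  | succ s ih => exact brU_mono ih ih

theorem iSup_der {ι : Type*} [AddCommGroup ι] (A : ι → AddSubgroup L) (s : ℕ) :
    (⨆ i, der A s i) = dU (⨆ i, A i) s := by
  induction s with
  | zero => rfl
  | succ s ih => rw [der, iSup_br, ih, dU]

theorem itU_mono' {T T' X Y : AddSubgroup L} (hT : T ≤ T') (h : X ≤ Y) (m : ℕ) :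
    itU T m X ≤ itU T' m Y := by
  induction m with
  | zero => exact h
  | succ m ih => exact brU_mono ih hT

theorem brU_comm (X Y : AddSubgroup L) : brU X Y ≤ brU Y X :=
  brU_le.2 fun x hx y hy => by
    rw [← lie_skew]; exact neg_mem (lie_mem_brU hy hx)

theorem brU_iSup_left {ι : Sort*} {X : ι → AddSubgroup L} {Y Z : AddSubgroup L}
    (h : ∀ i, brU (X i) Y ≤ Z) : brU (⨆ i, X i) Y ≤ Z :=
  brU_le.2 fun _ hx y hy =>
    (iSup_le fun i _ hx => h i (lie_mem_brU hx hy) : (⨆ i, X i) ≤ lq y Z) hx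

theorem brU_iSup_right {ι : Sort*} {Y : ι → AddSubgroup L} {X Z : AddSubgroup L}
    (h : ∀ i, brU X (Y i) ≤ Z) : brU X (⨆ i, Y i) ≤ Z :=
  brU_le.2 fun x hx _ hy =>
    (iSup_le fun i _ hy => h i (lie_mem_brU hx hy) : (⨆ i, Y i) ≤ rq x Z) hy

theorem brU_sup_left {X X' Y Z : AddSubgroup L} (h : brU X Y ≤ Z) (h' : brU X' Y ≤ Z) :
    brU (X ⊔ X') Y ≤ Z :=
  brU_le.2 fun _ hx y hy =>
    (sup_le (fun _ hx => h (lie_mem_brU hx hy)) (fun _ hx => h' (lie_mem_brU hx hy)) :
      X ⊔ X' ≤ lq y Z) hx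

theorem brU_sup_right {X Y Y' Z : AddSubgroup L} (h : brU X Y ≤ Z) (h' : brU X Y' ≤ Z) :
    brU X (Y ⊔ Y') ≤ Z :=
  (brU_comm _ _).trans (brU_sup_left ((brU_comm _ _).trans h) ((brU_comm _ _).trans h'))

theorem brU_bot_left (Y : AddSubgroup L) : brU ⊥ Y ≤ ⊥ :=
  brU_le.2 fun x hx y _ => by rw [AddSubgroup.mem_bot.1 hx, zero_lie]; exact zero_mem _

theorem itU_iSup {ι : Sort*} (T : AddSubgroup L) (X : ι → AddSubgroup L) (m : ℕ) :
    itU T m (⨆ i, X i) ≤ ⨆ i, itU T m (X i) := by
  induction m with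
  | zero => exact le_rfl
  | succ m ih =>
    exact (brU_mono ih le_rfl).trans
      (brU_iSup_left fun i => le_iSup (fun i => itU T (m + 1) (X i)) i)

theorem itU_le_self {T V : AddSubgroup L} (h : brU V T ≤ V) (m : ℕ) : itU T m V ≤ V := by
  induction m with
  | zero => exact le_rfl
  | succ m ih => exact (brU_mono ih le_rfl).trans h

/-- Jacobi identity for subgroups -/
theorem brU_brU_le {V T K Z : AddSubgroup L} (h1 : brU (brU V K) T ≤ Z) (h2 : brU V (brU T K) ≤ Z) :
    brU (brU V T) K ≤ Z :=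
  brU_le.2 fun _ hz y hy => (brU_le.2 fun v hv x hx => by
    rw [mem_lq, show ⁅⁅v, x⁆, y⁆ = ⁅⁅v, y⁆, x⁆ + ⁅v, ⁅x, y⁆⁆ by
      rw [lie_lie, ← lie_skew ⁅v, y⁆ x]; abel]
    exact add_mem (h1 (lie_mem_brU (lie_mem_brU hv hy) hx))
      (h2 (lie_mem_brU hv (lie_mem_brU hx hy))) : brU V T ≤ lq y Z) hz

theorem itU_chain {T : AddSubgroup L} {V : ℕ → AddSubgroup L} {b : ℕ}
    (h : ∀ j, itU T b (V j) ≤ V (j + 1)) (a : ℕ) : itU T (a * b) (V 0) ≤ V a := by
  induction a with
  | zero => rw [zero_mul]; exact le_rfl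
  | succ a ih => rw [add_mul, one_mul, itU_add]; exact (itU_mono T ih b).trans (h a)

theorem itU_comm_aux {ι : Type*} [DecidableEq ι] {K : AddSubgroup L} {Y : ι → AddSubgroup L}
    (hY : ∀ i, Y i ≤ K) {m : ℕ} (S : Finset ι) : ∀ V W : AddSubgroup L, brU V K ≤ V →
      brU W K ≤ W → brU V (brU K K) ≤ W → (∀ i, itU (Y i) m V ≤ W) →
      itU (⨆ i ∈ S, Y i) (m ^ S.card) V ≤ W := by
  induction S using Finset.induction_on with
  | empty =>
    intro V W _ _ _ _
    simp only [Finset.notMem_empty, iSup_false, iSup_bot, Finset.card_empty, pow_zero]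
    exact ((brU_comm _ _).trans (brU_bot_left V)).trans bot_le
  | insert i S hi ih =>
    intro V W hV hW hVW hm
    rw [Finset.card_insert_of_notMem hi, pow_succ', Finset.iSup_insert]
    set T := ⨆ i ∈ S, Y i
    have hT : T ≤ K := iSup₂_le fun i _ => hY i
    have hle : ∀ j, itU (Y i) j V ≤ V := itU_le_self ((brU_mono le_rfl (hY i)).trans hV)
    have hinv : ∀ j, brU (itU (Y i) j V ⊔ W) K ≤ itU (Y i) j V ⊔ W := fun j => by
      refine brU_sup_left ?_ (hW.trans le_sup_right)
      induction j with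
      | zero => exact hV.trans le_sup_left
      | succ j ihj =>
        refine brU_brU_le ((brU_mono ihj le_rfl).trans (brU_sup_left le_sup_left
          (((brU_mono le_rfl (hY i)).trans hW).trans le_sup_right))) ?_
        exact ((brU_mono (hle j) (brU_mono (hY i) le_rfl)).trans hVW).trans le_sup_right
    have key : ∀ j, itU (Y i ⊔ T) (m ^ S.card) (itU (Y i) j V ⊔ W) ≤
        itU (Y i) (j + 1) V ⊔ W := fun j => by
      have h1 : brU (itU (Y i) j V ⊔ W) (Y i) ≤ itU (Y i) (j + 1) V ⊔ W :=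
        brU_sup_left le_sup_left (((brU_mono le_rfl (hY i)).trans hW).trans le_sup_right)
      have h2 : ∀ n, itU (Y i ⊔ T) n (itU (Y i) j V ⊔ W) ≤
          itU T n (itU (Y i) j V ⊔ W) ⊔ (itU (Y i) (j + 1) V ⊔ W) := fun n => by
        induction n with
        | zero => exact le_sup_left
        | succ n ihn =>
          refine (brU_mono ihn le_rfl).trans (brU_sup_left (brU_sup_right ?_ le_sup_left) ?_)
          · exact ((brU_mono (itU_le_self ((brU_mono le_rfl hT).trans (hinv j)) n) le_rfl).trans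
              h1).trans le_sup_right
          · exact ((brU_mono le_rfl (sup_le (hY i) hT)).trans (hinv (j + 1))).trans le_sup_right
      refine (h2 _).trans (sup_le (ih _ _ (hinv j) (hinv (j + 1)) ?_ fun l => ?_) le_rfl)
      · refine le_trans (brU_sup_left ((brU_mono (hle j) le_rfl).trans hVW) ?_) le_sup_right
        exact (brU_comm _ _).trans (brU_brU_le
          ((brU_mono ((brU_comm _ _).trans hW) le_rfl).trans hW)
          ((brU_mono le_rfl ((brU_comm _ _).trans hW)).trans ((brU_comm _ _).trans hW)))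
      · have : itU (Y i) j V ⊔ W = ⨆ b : Bool, if b then itU (Y i) j V else W := by
          rw [iSup_bool_eq]; rfl
        rw [this]
        refine (itU_iSup _ _ m).trans (iSup_le fun b => le_trans ?_ le_sup_right)
        cases b
        · exact itU_le_self ((brU_mono le_rfl (hY l)).trans hW) m
        · exact (itU_mono _ (hle j) m).trans (hm l)
    have := itU_chain (V := fun j => itU (Y i) j V ⊔ W) key m
    exact ((itU_mono _ le_sup_left _).trans this).trans (sup_le (hm i) le_rfl)

end basic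

/-- A solvable subring whose derived terms are spanned by boundedly many ad-nilpotent pieces acts
nilpotently. -/
theorem nil_of_span (t m s : ℕ) : ∃ f : ℕ, ∀ (L : Type u) [LieRing L] (ι : Type u) [Finite ι]
    (Y : ι → AddSubgroup L) (K : AddSubgroup L), Nat.card ι ≤ t → (∀ i, itU (Y i) m ⊤ = ⊥) →
    brU K K ≤ K → (∀ j, dU K j ≤ ⨆ i, Y i ⊓ dU K j) → dU K s = ⊥ → itU K f ⊤ = ⊥ := by
  induction s with
  | zero =>
    refine ⟨1, fun L _ ι _ Y K _ _ _ _ h => le_bot_iff.1 ?_⟩
    rw [show K = ⊥ from h]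
    exact (brU_comm _ _).trans (brU_bot_left _)
  | succ s ih =>
    obtain ⟨f, hf⟩ := ih
    refine ⟨f * (m + 1) ^ t, fun L _ ι _ Y K ht hY hK hsp hs => ?_⟩
    classical
    let _ := Fintype.ofFinite ι
    have h1 := hf L ι Y (brU K K) ht hY (brU_mono hK hK)
      (fun j => by rw [dU_succ']; exact hsp (j + 1)) (by rwa [dU_succ'])
    have hinv : ∀ j, brU (itU (brU K K) j ⊤) K ≤ itU (brU K K) j ⊤ := fun j => by
      induction j with
      | zero => exact le_top
      | succ j ihj => exact brU_brU_le (brU_mono ihj le_rfl) (brU_mono le_rfl (brU_mono hK le_rfl))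
    have key : ∀ j, itU K ((m + 1) ^ t) (itU (brU K K) j ⊤) ≤ itU (brU K K) (j + 1) ⊤ := fun j => by
      have h2 := itU_comm_aux (Y := fun i => Y i ⊓ K) (fun i => inf_le_right) (m := m + 1)
        Finset.univ _ _ (hinv j) (hinv (j + 1)) le_rfl fun i => by
          rw [itU_add]
          exact ((itU_mono _ ((itU_mono' inf_le_left le_top m).trans (hY i).le) 1).trans
            (brU_bot_left _)).trans bot_le
      simp only [Finset.mem_univ, iSup_true, Finset.card_univ] at h2
      obtain ⟨d, hd⟩ := Nat.exists_eq_add_of_le (Nat.pow_le_pow_right (Nat.succ_pos m)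
        (Nat.card_eq_fintype_card.symm.trans_le ht))
      rw [hd, itU_add]
      exact (itU_mono _ ((itU_mono' (hsp 0) le_rfl _).trans h2) d).trans
        (itU_le_self (hinv (j + 1)) d)
    exact le_bot_iff.1 ((itU_chain (V := fun j => itU (brU K K) j ⊤) key f).trans h1.le)

section krek

variable {L : Type*} [LieRing L] {n : ℕ}

/-- the part of the family in degree zero and degrees `≥ k` -/
def cut0 (A : ZMod n → AddSubgroup L) (k : ℕ) (j : ZMod n) : AddSubgroup L :=
  if k ≤ j.val ∨ j = 0 then A j else ⊥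

theorem cut0_le (A : ZMod n → AddSubgroup L) (k : ℕ) : cut0 A k ≤ A := by
  intro j
  unfold cut0
  split_ifs
  exacts [le_rfl, bot_le]

theorem cut0_mono {A B : ZMod n → AddSubgroup L} (h : A ≤ B) (k : ℕ) : cut0 A k ≤ cut0 B k := by
  intro j
  unfold cut0
  split_ifs
  exacts [h j, le_rfl]

theorem gen_mono {ι : Type*} [AddCommGroup ι] {A B : ι → AddSubgroup L} (h : A ≤ B) :
    gen A ≤ gen B := gen_le (h.trans (le_gen B)) (br_gen B)

theorem le_gen_cut0 (A : ZMod n → AddSubgroup L) {k : ℕ} {j : ZMod n} (h : k ≤ j.val ∨ j = 0) :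
    A j ≤ gen (cut0 A k) j := le_trans (by rw [cut0, if_pos h]) (le_gen _ j)

theorem br_cut0_le [NeZero n] (A : ZMod n → AddSubgroup L) {k : ℕ} {j : ZMod n}
    (hj : j.val = k + 1) :
    br A (cut0 A (k + 1)) j ≤ brU (A j) (A 0) ⊔ gen (cut0 A (k + 2)) j := by
  refine br_apply_le.2 fun s t e a ha b hb => ?_
  unfold cut0 at hb
  split_ifs at hb with ht
  swap
  · rw [AddSubgroup.mem_bot.1 hb, lie_zero]; exact zero_mem _
  rcases ht with ht | rfl
  swap
  · rw [add_zero] at e
    exact AddSubgroup.mem_sup_left (lie_mem_brU (e ▸ ha) hb)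
  rcases ht.lt_or_eq with ht | ht
  · have h3 : (s.val + t.val) % n = j.val := by rw [← ZMod.val_add, e]
    have hs := ZMod.val_lt s
    have ht' := ZMod.val_lt t
    have h4 : k + 2 ≤ s.val := by
      by_contra hlt
      rcases lt_or_ge (s.val + t.val) n with h5 | h5
      · rw [Nat.mod_eq_of_lt h5] at h3; omega
      · rw [Nat.mod_eq_sub_mod h5, Nat.mod_eq_of_lt (by omega)] at h3; omega
    rw [← e]
    exact AddSubgroup.mem_sup_right (br_gen _ _ (lie_mem_br (le_gen_cut0 A (Or.inl h4) ha)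
      (le_gen_cut0 A (Or.inl (by omega)) hb)))
  · obtain rfl : t = j := ZMod.val_injective n (by omega)
    obtain rfl : s = 0 := by simpa using e
    exact AddSubgroup.mem_sup_left (brU_comm _ _ (lie_mem_brU ha hb))

end krek

theorem kreknin_nil_aux (n m k : ℕ) [NeZero n] : ∃ f : ℕ, ∀ (L : Type u) [LieRing L]
    (A : ZMod n → AddSubgroup L), br A A ≤ A → (∀ j, itU (A 0) m (A j) = ⊥) →
    der A f ≤ gen (cut0 A (k + 1)) := by
  induction k with
  | zero =>
    refine ⟨0, fun L _ A _ _ j => le_gen_cut0 A ?_⟩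
    rw [← ZMod.val_eq_zero]
    omega
  | succ k ih =>
    obtain ⟨f, hf⟩ := ih
    refine ⟨m * (f + 1) + f, fun L _ A hA hm => ?_⟩
    have hnil : ∀ s j, itU (der A s 0) m (der A s j) = ⊥ := fun s j =>
      le_bot_iff.1 ((itU_mono' ((der_sub hA s).1 0) ((der_sub hA s).1 j) m).trans (hm j).le)
    rw [← der_add]
    refine (hf L _ (der_sub hA _).2 (hnil _)).trans (gen_le (fun j => ?_) (br_gen _))
    unfold cut0
    split_ifs with hj
    swap
    · exact bot_le
    by_cases hj' : k + 2 ≤ j.val ∨ j = 0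
    · exact ((der_sub hA _).1 j).trans (le_gen_cut0 A hj')
    have hjk : j.val = k + 1 := by
      rcases hj with hj | hj
      · have := not_or.mp hj'; omega
      · exact absurd (Or.inr hj) hj'
    have key : ∀ i, der A (i * (f + 1)) j ≤ itU (A 0) i (A j) ⊔ gen (cut0 A (k + 2)) j := by
      intro i
      induction i with
      | zero => rw [zero_mul]; exact le_sup_left
      | succ i ihi =>
        rw [add_mul, one_mul, ← der_add]
        have hM := der_sub hA (i * (f + 1))
        have h1 : der (der A (i * (f + 1))) (f + 1) ≤ br (der A (i * (f + 1)))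
            (cut0 (der A (i * (f + 1))) (k + 1)) :=
          (br_mono (der_sub hM.2 f).1 (hf L _ hM.2 (hnil _))).trans (br_gen_le hM.2 (cut0_le _ _))
        refine ((h1 j).trans (br_cut0_le _ hjk)).trans (sup_le ((brU_mono ihi (hM.1 0)).trans
          (brU_sup_left le_sup_left ?_)) ((gen_mono (cut0_mono hM.1 _) j).trans le_sup_right))
        refine le_trans (brU_le.2 fun x hx y hy => ?_) le_sup_right
        have := br_gen _ _ (lie_mem_br hx (le_gen_cut0 A (Or.inr rfl) hy))
        rwa [add_zero] at this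
    exact (key m).trans (sup_le ((hm j).le.trans bot_le) le_rfl)

/-- Kreknin's theorem for an ad-nilpotent zero component. -/
theorem kreknin_nil (n m : ℕ) [NeZero n] : ∃ f : ℕ, ∀ (L : Type u) [LieRing L]
    (A : ZMod n → AddSubgroup L), br A A ≤ A → (∀ j, itU (A 0) m (A j) = ⊥) →
    dU (⨆ i, A i) f = ⊥ := by
  obtain ⟨f, hf⟩ := kreknin_nil_aux.{u} n m (n - 1)
  refine ⟨f + m, fun L _ A hA hm => ?_⟩
  have h1 : der A f ≤ cut0 A (n - 1 + 1) := (hf L A hA hm).trans (gen_le le_rfl (by
    rw [br_le]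
    intro u v x hx y hy
    have hu := ZMod.val_lt u
    have hv := ZMod.val_lt v
    unfold cut0 at hx hy
    split_ifs at hx with h1
    swap
    · rw [AddSubgroup.mem_bot.1 hx, zero_lie]; exact zero_mem _
    split_ifs at hy with h2
    swap
    · rw [AddSubgroup.mem_bot.1 hy, lie_zero]; exact zero_mem _
    obtain rfl : u = 0 := h1.resolve_left (by omega)
    obtain rfl : v = 0 := h2.resolve_left (by omega)
    rw [cut0, if_pos (Or.inr (add_zero _))]
    exact br_le.1 hA _ _ _ hx _ hy))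
  have h2 : dU (⨆ i, A i) f ≤ A 0 := by
    rw [← iSup_der]
    refine iSup_le fun j => (h1 j).trans ?_
    have hj := ZMod.val_lt j
    unfold cut0
    split_ifs with h
    · rw [h.resolve_left (by omega)]
    · exact bot_le
  have h3 : ∀ i, dU (⨆ i, A i) (f + i) ≤ A 0 ⊓ itU (A 0) i (A 0) := fun i => by
    induction i with
    | zero => exact le_inf h2 h2
    | succ i ih =>
      refine le_inf (brU_le.2 fun x hx y hy => ?_)
        (brU_mono (ih.trans inf_le_right) (ih.trans inf_le_left))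
      have := br_le.1 hA _ _ _ (ih hx).1 _ (ih hy).1
      rwa [add_zero] at this
  exact le_bot_iff.1 (((h3 m).trans inf_le_right).trans (hm 0).le)

theorem der_of_aut_aux (p m : ℕ) [hp : Fact p.Prime] : ∃ f : ℕ, ∀ (R : Type) [CommRing R]
    (M : Type u) [LieRing M] [LieAlgebra R M] (w : ZMod p → R), w 0 = 1 →
    (∀ a b, w (a + b) = w a * w b) → ∑ a, w a = 0 → ∀ ψ : Module.End R M,
    (∀ a b, ψ ⁅a, b⁆ = ⁅ψ a, ψ b⁆) → ψ ^ p = 1 → ∀ e : ℕ, (∀ x : M, (e * p) • x = x) →
    ∀ K : AddSubgroup M, (∀ x, ∑ k ∈ Finset.range p, (ψ ^ k) x ∈ K) → itU K m ⊤ = ⊥ →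
    dU (⊤ : AddSubgroup M) f = ⊥ := by
  obtain ⟨f, hf⟩ := kreknin_nil.{u} p m
  refine ⟨f, fun R _ M _ _ w w0 wadd wsum ψ hψ hψp e he K hK hm => ?_⟩
  let A : ZMod p → AddSubgroup M := fun a =>
    { carrier := {y | ψ y = w a • y}
      zero_mem' := by simp
      add_mem' := fun {x y} hx hy => by
        show ψ (x + y) = _
        rw [map_add, show ψ x = _ from hx, show ψ y = _ from hy, smul_add]
      neg_mem' := fun {x} hx => by
        show ψ (-x) = _
        rw [map_neg, show ψ x = _ from hx, smul_neg] }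
  have hA : ∀ a b, ∀ x ∈ A a, ∀ y ∈ A b, ⁅x, y⁆ ∈ A (a + b) := by
    intro a b x hx y hy
    show ψ ⁅x, y⁆ = _
    rw [hψ, show ψ x = _ from hx, show ψ y = _ from hy, smul_lie, lie_smul, wadd, mul_smul]
  have hT : ∀ y, p • y ∈ ⨆ a, A a := by
    intro y
    have h1 : ∀ a, ∑ k : ZMod p, w (-(a * k)) • (ψ ^ k.val) y ∈ A a := by
      intro a
      show ψ _ = _
      rw [map_sum, Finset.smul_sum, ← Equiv.sum_comp (Equiv.addRight (1 : ZMod p))
        (fun k => w a • w (-(a * k)) • (ψ ^ k.val) y)]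
      refine Finset.sum_congr rfl fun k _ => ?_
      rw [map_smul, Equiv.coe_addRight, ← mul_smul, ← wadd, ZMod.val_add, ← pow_eq_pow_mod _ hψp,
        ZMod.val_one, pow_succ', Module.End.mul_apply]
      congr 2
      ring
    have h2 : ∑ a : ZMod p, ∑ k : ZMod p, w (-(a * k)) • (ψ ^ k.val) y = p • y := by
      rw [Finset.sum_comm, Finset.sum_eq_single (0 : ZMod p)]
      · simp [w0]
      · intro k _ hk
        rw [← Finset.sum_smul]
        have := Equiv.sum_comp (Equiv.mulRight₀ (-k) (neg_ne_zero.2 hk)) w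
        simp only [Equiv.mulRight₀_apply, mul_neg] at this
        rw [this, wsum, zero_smul]
      · simp
    rw [← h2]
    exact sum_mem fun a _ => le_iSup A a (h1 a)
  have htop : (⨆ a, A a) = ⊤ := eq_top_iff.2 fun y _ => by
    rw [← he y, mul_smul]; exact nsmul_mem (hT y) e
  have h0 : A 0 ≤ K := fun x hx => by
    have hx' : ψ x = x := by rw [show ψ x = _ from hx, w0, one_smul]
    have h2 : ∀ k : ℕ, (ψ ^ k) x = x := by
      intro k
      induction k with
      | zero => rfl
      | succ k ih => rw [pow_succ, Module.End.mul_apply, hx', ih]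
    have := hK x
    simp only [h2, Finset.sum_const, Finset.card_range] at this
    rw [← he x, mul_smul]; exact nsmul_mem this e
  rw [← htop]
  exact hf M A (br_le.2 hA) fun j => le_bot_iff.1 ((itU_mono' h0 le_top m).trans hm.le)

/-- A Lie ring with an automorphism of order `p` whose traces act nilpotently is solvable of
bounded derived length. -/
theorem der_of_aut (p m : ℕ) [hp : Fact p.Prime] : ∃ f : ℕ, ∀ (L : Type u) [LieRing L]
    (φ : L →+ L), (∀ a b, φ ⁅a, b⁆ = ⁅φ a, φ b⁆) → (∀ x, φ^[p] x = x) → ∀ e : ℕ,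
    (∀ x : L, (e * p) • x = x) → ∀ K : AddSubgroup L,
    (∀ x, ∑ k ∈ Finset.range p, φ^[k] x ∈ K) → itU K m ⊤ = ⊥ →
    dU (⊤ : AddSubgroup L) f = ⊥ := by
  obtain ⟨f, hf⟩ := der_of_aut_aux.{u} p m
  refine ⟨f, fun L _ φ hφ hφp e he K hK hm => ?_⟩
  obtain ⟨R, _, w, r, w0, wadd, wsum, r1⟩ := H7.exists_cyc_ring p
  let ψ : Module.End R (R ⊗[ℤ] L) := LinearMap.baseChange R φ.toIntLinearMap
  let φ' : L →ₗ⁅ℤ⁆ L := { φ.toIntLinearMap with map_lie' := fun {a b} => hφ a b }
  let ψ' := LieAlgebra.ExtendScalars.map (AlgHom.id ℤ R) φ'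
  have hψψ : ∀ a, ψ a = ψ' a := by
    intro a
    induction a using TensorProduct.induction_on with
    | zero => simp
    | add a b ha hb => simp only [map_add, ha, hb]
    | tmul s x => rfl
  have hψk : ∀ (k : ℕ) (s : R) (x : L), (ψ ^ k) (s ⊗ₜ x) = s ⊗ₜ (φ^[k] x) := by
    intro k s x
    induction k with
    | zero => rfl
    | succ k ih => rw [pow_succ', Module.End.mul_apply, ih, Function.iterate_succ_apply']; rfl
  have hψp : ψ ^ p = 1 := by
    apply LinearMap.ext
    intro a
    induction a using TensorProduct.induction_on with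
    | zero => simp
    | add a b ha hb => simp only [map_add, ha, hb]
    | tmul s x => rw [hψk, hφp]; rfl
  let ι : R → L →+ R ⊗[ℤ] L := fun s => (TensorProduct.mk ℤ R L s).toAddMonoidHom
  let E : AddSubgroup L → AddSubgroup (R ⊗[ℤ] L) := fun Z => ⨆ s, Z.map (ι s)
  have hE : ∀ {Z : AddSubgroup L} (s : R) {x : L}, x ∈ Z → s ⊗ₜ x ∈ E Z := fun s x hx =>
    le_iSup (fun s => AddSubgroup.map (ι s) _) s (AddSubgroup.mem_map_of_mem _ hx)
  have hEm : ∀ j, itU (E K) j ⊤ ≤ E (itU K j ⊤) := fun j => by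
    induction j with
    | zero =>
      rintro a -
      induction a using TensorProduct.induction_on with
      | zero => exact zero_mem _
      | add a b ha hb => exact add_mem ha hb
      | tmul s x => exact hE s trivial
    | succ j ih =>
      refine (brU_mono ih le_rfl).trans (brU_iSup_left fun s => brU_iSup_right fun s' =>
        brU_le.2 ?_)
      rintro _ ⟨x, hx, rfl⟩ _ ⟨y, hy, rfl⟩
      exact hE (s * s') (lie_mem_brU hx hy)
  have h1 := hf R _ w w0 wadd wsum ψ (fun a b => by
    rw [hψψ, hψψ, hψψ]; exact ψ'.map_lie a b) hψp e (fun a => by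
      induction a using TensorProduct.induction_on with
      | zero => exact smul_zero _
      | add a b ha hb => rw [smul_add, ha, hb]
      | tmul s x => rw [← TensorProduct.tmul_smul, he]) (E K) (fun a => by
      induction a using TensorProduct.induction_on with
      | zero => simp
      | add a b ha hb => simp only [map_add, Finset.sum_add_distrib]; exact add_mem ha hb
      | tmul s x =>
        simp only [hψk]
        rw [← TensorProduct.tmul_sum]
        exact hE s (hK x)) (le_bot_iff.1 ((hEm m).trans (iSup_le fun s => by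
          rw [hm, AddSubgroup.map_bot])))
  have h2 : ∀ c, dU (⊤ : AddSubgroup L) c ≤ (dU (⊤ : AddSubgroup (R ⊗[ℤ] L)) c).comap (ι 1) := by
    intro c
    induction c with
    | zero => exact le_rfl
    | succ c ih =>
      refine brU_le.2 fun u hu x hx => ?_
      have h3 := lie_mem_brU (L := R ⊗[ℤ] L) (ih hu) (ih hx)
      have h4 : ι 1 ⁅u, x⁆ = ((1 : R) * 1) ⊗ₜ[ℤ] ⁅u, x⁆ := by rw [one_mul]; rfl
      rw [AddSubgroup.mem_comap, h4]
      exact h3
  refine le_bot_iff.1 fun y hy => ?_
  have h3 := h2 f hy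
  rw [h1, AddSubgroup.mem_comap, AddSubgroup.mem_bot] at h3
  have h4 := congrArg
    (fun z => TensorProduct.lid ℤ L (TensorProduct.map r.toIntLinearMap LinearMap.id z)) h3
  simpa [ι, r1] using h4

end Cfsg.Agent.H9.Acc
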