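import Cfsg.Agent.H9.Acc1

/-! Bounding the nilpotency class of a group through the associated Lie ring. -/

set_option autoImplicit false

namespace Cfsg.Agent.H9.Acc

open H7.Krek H7.AssocLie Subgroup

universe u

variable {G : Type*} [Group G]

/-- iterated commutator with a fixed subgroup -/
def itC (W : Subgroup G) : ℕ → Subgroup G → Subgroup G
  | 0, H => H
  | m + 1, H => ⁅itC W m H, W⁆

/-- derived series of a subgroup -/
def dS (C : Subgroup G) : ℕ → Subgroup G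
  | 0 => C
  | s + 1 => ⁅dS C s, dS C s⁆

/-- elements of `γ i` whose class lies in `Z` -/
def pre (i : ℕ) (Z : AddSubgroup (AL G)) : Subgroup G where
  carrier := {x | x ∈ γ G i ∧ cls i x ∈ Z}
  one_mem' := ⟨one_mem _, by rw [cls_one]; exact zero_mem _⟩
  mul_mem' := fun {x y} hx hy => ⟨mul_mem hx.1 hy.1, by
    rw [cls_mul hx.1 hy.1]; exact add_mem hx.2 hy.2⟩
  inv_mem' := fun {x} hx => ⟨inv_mem hx.1, by rw [cls_inv hx.1]; exact neg_mem hx.2⟩

/-- classes in degree `i` -/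
def cl (i : ℕ) (H : Subgroup G) : AddSubgroup (AL G) := AddSubgroup.closure (cls i '' H)

theorem cls_mem_cl {i : ℕ} {H : Subgroup G} {x : G} (hx : x ∈ H) : cls i x ∈ cl i H :=
  AddSubgroup.subset_closure ⟨x, hx, rfl⟩

theorem cl_le {i : ℕ} {H : Subgroup G} {Z : AddSubgroup (AL G)} :
    cl i H ≤ Z ↔ ∀ x ∈ H, cls i x ∈ Z :=
  ⟨fun h _ hx => h (cls_mem_cl hx), fun h => (AddSubgroup.closure_le _).2 (by
    rintro _ ⟨x, hx, rfl⟩; exact h x hx)⟩

theorem cl_le_of_pre {i : ℕ} {H : Subgroup G} {Z : AddSubgroup (AL G)} (h : H ≤ pre i Z) :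
    cl i H ≤ Z := cl_le.2 fun _ hx => (h hx).2

theorem cl_mono (i : ℕ) {H K : Subgroup G} (h : H ≤ K) : cl i H ≤ cl i K :=
  cl_le.2 fun _ hx => cls_mem_cl (h hx)

theorem brU_cl_le {i j : ℕ} {H K : Subgroup G} (hH : H ≤ γ G i) (hK : K ≤ γ G j) :
    brU (cl i H) (cl j K) ≤ cl (i + j + 1) ⁅H, K⁆ :=
  brU_le.2 fun _ hu v hv => (cl_le.2 fun x hx => (cl_le.2 fun y hy => by
    rw [mem_rq, lie_cls (hH hx) (hK hy)]
    exact cls_mem_cl (commutator_mem_commutator hx hy) :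
      cl j K ≤ rq (cls i x) (cl (i + j + 1) ⁅H, K⁆)) hv :
        cl i H ≤ lq v (cl (i + j + 1) ⁅H, K⁆)) hu

theorem cl_le_brU {i j : ℕ} {H K : Subgroup G} (hH : H ≤ γ G i) (hK : K ≤ γ G j) :
    cl (i + j + 1) ⁅H, K⁆ ≤ brU (cl i H) (cl j K) :=
  cl_le_of_pre (commutator_le.2 fun x hx y hy => ⟨comm_mem (hH hx) (hK hy), by
    rw [← lie_cls (hH hx) (hK hy)]; exact lie_mem_brU (cls_mem_cl hx) (cls_mem_cl hy)⟩)

/-- the homogeneous additive subgroup of a subgroup -/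
def LH (H : Subgroup G) : AddSubgroup (AL G) := ⨆ i, cl i (H ⊓ γ G i)

theorem cl_le_LH {i : ℕ} {H K : Subgroup G} (h : H ≤ K) (hH : H ≤ γ G i) : cl i H ≤ LH K :=
  (cl_mono i (le_inf h hH)).trans (le_iSup (fun i => cl i (K ⊓ γ G i)) i)

theorem LH_mono {H K : Subgroup G} (h : H ≤ K) : LH H ≤ LH K :=
  iSup_le fun _ => cl_le_LH (inf_le_left.trans h) inf_le_right

theorem LH_bot : LH (⊥ : Subgroup G) ≤ ⊥ :=
  iSup_le fun i => cl_le.2 fun x hx => by rw [mem_bot.1 hx.1, cls_one]; exact zero_mem _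

theorem brU_LH (H K : Subgroup G) : brU (LH H) (LH K) ≤ LH ⁅H, K⁆ :=
  brU_iSup_left fun _ => brU_iSup_right fun _ => (brU_cl_le inf_le_right inf_le_right).trans
    (cl_le_LH (commutator_mono inf_le_left inf_le_left)
      (commutator_le.2 fun _ hx _ hy => comm_mem hx.2 hy.2))

/-- `K` is spanned by the classes of members of `F` -/
def Sp (F : Set (Subgroup G)) (K : AddSubgroup (AL G)) : Prop :=
  K ≤ ⨆ (i : ℕ) (H : Subgroup G) (_ : H ∈ F ∧ H ≤ γ G i ∧ cl i H ≤ K), cl i H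

theorem Sp.le {F : Set (Subgroup G)} {K Z : AddSubgroup (AL G)} (h : Sp F K)
    (hZ : ∀ i, ∀ H ∈ F, H ≤ γ G i → cl i H ≤ K → cl i H ≤ Z) : K ≤ Z :=
  h.trans (iSup_le fun i => iSup₂_le fun H hH => hZ i H hH.1 hH.2.1 hH.2.2)

theorem le_sp {F : Set (Subgroup G)} {K : AddSubgroup (AL G)} {i : ℕ} {H : Subgroup G}
    (h1 : H ∈ F) (h2 : H ≤ γ G i) (h3 : cl i H ≤ K) :
    cl i H ≤ ⨆ (i : ℕ) (H : Subgroup G) (_ : H ∈ F ∧ H ≤ γ G i ∧ cl i H ≤ K), cl i H :=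
  le_iSup_of_le i (le_iSup₂_of_le H ⟨h1, h2, h3⟩ le_rfl)

theorem cl_le_sp {F : Set (Subgroup G)} {K : AddSubgroup (AL G)} {i : ℕ} {D : Subgroup G}
    (hD : D ≤ γ G i) (h : D ≤ sSup {H | H ∈ F ∧ H ≤ D}) (hK : cl i D ≤ K) :
    cl i D ≤ ⨆ (i : ℕ) (H : Subgroup G) (_ : H ∈ F ∧ H ≤ γ G i ∧ cl i H ≤ K), cl i H :=
  cl_le_of_pre (h.trans (sSup_le fun _ hH _ hx => ⟨hD (hH.2 hx),
    le_sp hH.1 (hH.2.trans hD) ((cl_mono i hH.2).trans hK) (cls_mem_cl hx)⟩))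

theorem Sp.brU {F : Set (Subgroup G)}
    (hF : ∀ H ∈ F, ∀ K ∈ F, ⁅H, K⁆ ≤ sSup {J | J ∈ F ∧ J ≤ ⁅H, K⁆})
    {U V : AddSubgroup (AL G)} (hU : Sp F U) (hV : Sp F V) : Sp F (brU U V) :=
  (brU_mono hU hV).trans (brU_iSup_left fun _ => brU_iSup_left fun H => brU_iSup_left fun hH =>
    brU_iSup_right fun _ => brU_iSup_right fun K => brU_iSup_right fun hK =>
      (brU_cl_le hH.2.1 hK.2.1).trans (cl_le_sp
        (commutator_le.2 fun _ hx _ hy => comm_mem (hH.2.1 hx) (hK.2.1 hy)) (hF H hH.1 K hK.1)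
        ((cl_le_brU hH.2.1 hK.2.1).trans (brU_mono hH.2.2 hK.2.2))))

theorem Sp.dU {F : Set (Subgroup G)}
    (hF : ∀ H ∈ F, ∀ K ∈ F, ⁅H, K⁆ ≤ sSup {J | J ∈ F ∧ J ≤ ⁅H, K⁆})
    {U : AddSubgroup (AL G)} (hU : Sp F U) (j : ℕ) : Sp F (dU U j) := by
  induction j with
  | zero => exact hU
  | succ j ih => exact ih.brU hF ih

theorem sp_top {F : Set (Subgroup G)} (h0 : ⊤ ≤ sSup F)
    (hF : ∀ H ∈ F, ∀ K ∈ F, ⁅H, K⁆ ≤ sSup {J | J ∈ F ∧ J ≤ ⁅H, K⁆}) : Sp F ⊤ := by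
  have h1 : Sp F (cl 0 ⊤) := cl_le_sp le_rfl (by simpa using h0) le_rfl
  have h2 : ∀ i, Sp F (cl i (γ G i)) := fun i => by
    induction i with
    | zero => exact h1
    | succ i ih =>
      have e : cl (i + 1) (γ G (i + 1)) = brU (cl i (γ G i)) (cl 0 ⊤) :=
        le_antisymm (cl_le_brU (j := 0) le_rfl le_rfl) (brU_cl_le (j := 0) le_rfl le_rfl)
      rw [e]
      exact ih.brU hF h1
  rintro a -
  induction a using induction_on with
  | h0 => exact zero_mem _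
  | h1 i x hx => exact (h2 i).le (fun j H a b _ => le_sp a b le_top) (cls_mem_cl hx)
  | h2 a b ha hb => exact add_mem ha hb

theorem itU_LH (W : Subgroup G) (m : ℕ) (H : Subgroup G) : itU (LH W) m (LH H) ≤ LH (itC W m H) := by
  induction m with
  | zero => exact le_rfl
  | succ m ih => exact (brU_mono ih le_rfl).trans (brU_LH _ _)

theorem dU_LH (C : Subgroup G) (s : ℕ) : dU (LH C) s ≤ LH (dS C s) := by
  induction s with
  | zero => exact le_rfl
  | succ s ih => exact (brU_mono ih ih).trans (brU_LH _ _)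

theorem lcs_eq_bot_of_le (hG : Group.IsNilpotent G) {f : ℕ} (h : γ G f ≤ γ G (f + 1)) :
    γ G f = ⊥ := by
  obtain ⟨n, hn⟩ := Subgroup.nilpotent_iff_lowerCentralSeries.1 hG
  have h1 : ∀ j, γ G f ≤ γ G (f + j) := fun j => by
    induction j with
    | zero => exact le_rfl
    | succ j ih => exact h.trans (commutator_mono ih le_rfl)
  exact le_bot_iff.1 (((h1 n).trans (γ_anti (Nat.le_add_left n f))).trans hn.le)

theorem lcs_bound (p t m s : ℕ) [Fact p.Prime] : ∃ f : ℕ, ∀ (G : Type u) [Group G],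
    Group.IsNilpotent G → ∀ α : G →* G, (∀ x, α^[p] x = x) → ∀ e : ℕ, (∀ x : G, x ^ (e * p) = x) →
    ∀ (F : Set (Subgroup G)) (ι : Type u) [Finite ι] (W : ι → Subgroup G) (C : Subgroup G),
    Nat.card ι ≤ t → ⊤ ≤ sSup F →
    (∀ H ∈ F, ∀ K ∈ F, ⁅H, K⁆ ≤ sSup {J | J ∈ F ∧ J ≤ ⁅H, K⁆}) →
    (∀ H ∈ F, ∃ i, H ≤ W i) → (∀ i, ∀ H ∈ F, itC (W i) m H = ⊥) → (∀ x ∈ C, α x = x) →
    (∀ H ∈ F, H ⊓ C ∈ F ∧ H ≤ closure {y | ∃ h ∈ H, ∃ k, y = h * (α^[k] h)⁻¹} ⊔ H ⊓ C) →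
    dS C s = ⊥ → (⊤ : Subgroup G).lowerCentralSeries f = ⊥ := by
  obtain ⟨f₁, hf₁⟩ := nil_of_span.{u} t m s
  obtain ⟨f₂, hf₂⟩ := der_of_aut.{u} p f₁
  obtain ⟨f₃, hf₃⟩ := nil_of_span.{u} t m f₂
  refine ⟨f₃, fun G _ hG α hα e he F ι _ W C ht h0 hF hW hm hC hfix hs => ?_⟩
  have htop := sp_top h0 hF
  have hY : ∀ i, itU (LH (W i)) m ⊤ = ⊥ := fun i => by
    refine le_bot_iff.1 ((itU_mono _ htop m).trans ((itU_iSup _ _ m).trans (iSup_le fun j =>
      (itU_iSup _ _ m).trans (iSup_le fun H => (itU_iSup _ _ m).trans (iSup_le fun hH => ?_)))))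
    refine ((itU_mono _ (cl_le_LH le_rfl hH.2.1) m).trans (itU_LH _ _ _)).trans ?_
    rw [hm i H hH.1]
    exact LH_bot
  have hsp : ∀ U : AddSubgroup (AL G), Sp F U → ∀ j, dU U j ≤ ⨆ i, LH (W i) ⊓ dU U j :=
    fun U hU j => (hU.dU hF j).le fun i H h1 h2 h3 => by
      obtain ⟨l, hl⟩ := hW H h1
      exact le_iSup_of_le l (le_inf (cl_le_LH hl h2) h3)
  set K := ⨆ (i : ℕ) (H : Subgroup G) (_ : H ∈ F ∧ H ≤ γ G i ∧ cl i H ≤ LH C), cl i H with hK
  have hKC : K ≤ LH C := iSup_le fun i => iSup₂_le fun H hH => hH.2.2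
  have hKs : Sp F K := iSup_le fun i => iSup₂_le fun H hH =>
    le_sp hH.1 hH.2.1 (le_sp hH.1 hH.2.1 hH.2.2)
  have hKK : brU K K ≤ K := (hKs.brU hF hKs).le fun i H h1 h2 h3 => le_sp h1 h2
    (h3.trans (((brU_mono hKC hKC).trans (brU_LH _ _)).trans (LH_mono (commutator_le.2
      fun x hx y hy => mul_mem (mul_mem (mul_mem hx hy) (inv_mem hx)) (inv_mem hy)))))
  have h1 := hf₁ _ ι _ K ht hY hKK (hsp K hKs) (le_bot_iff.1 (((dU_mono hKC s).trans
    (dU_LH C s)).trans (by rw [hs]; exact LH_bot)))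
  obtain ⟨φ, φ1, φ2⟩ := exists_map α
  have h3 : ∀ k i x, x ∈ γ G i → α^[k] x ∈ γ G i ∧ φ^[k] (cls i x) = cls i (α^[k] x) := by
    intro k i x hx
    induction k with
    | zero => exact ⟨hx, rfl⟩
    | succ k ih =>
      rw [Function.iterate_succ_apply', Function.iterate_succ_apply', ih.2, φ1 _ _ ih.1]
      exact ⟨map_mem α ih.1, rfl⟩
  have hφp : ∀ a, φ^[p] a = a := fun a => by
    induction a using induction_on with
    | h0 => exact iterate_map_zero φ p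
    | h1 i x hx => rw [(h3 p i x hx).2, hα]
    | h2 a b ha hb => rw [iterate_map_add, ha, hb]
  let T : AL G →+ AL G :=
    { toFun := fun a => ∑ k ∈ Finset.range p, φ^[k] a
      map_zero' := by simp [iterate_map_zero]
      map_add' := fun a b => by simp only [iterate_map_add, Finset.sum_add_distrib] }
  have hT : ∀ k a, T (φ^[k] a) = T a := fun k a => by
    induction k with
    | zero => rfl
    | succ k ih =>
      rw [← ih, Function.iterate_succ_apply']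
      have e1 := Finset.sum_range_succ (fun j => φ^[j] (φ^[k] a)) p
      rw [Finset.sum_range_succ', hφp] at e1
      exact add_right_cancel e1
  have h2 := hf₂ _ φ φ2 hφp e (fun a => by
    induction a using induction_on with
    | h0 => exact smul_zero _
    | h1 i x hx => rw [← cls_pow hx, he]
    | h2 a b ha hb => rw [smul_add, ha, hb]) K (fun a => by
      refine htop.le (Z := K.comap T) (fun i H a b _ => cl_le_of_pre ((hfix H a).2.trans
        (sup_le ((closure_le _).2 ?_) fun x hx => ⟨b hx.1, ?_⟩))) (AddSubgroup.mem_top a)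
      · rintro _ ⟨h, hh, k, rfl⟩
        have := h3 k i h (b hh)
        refine ⟨mul_mem (b hh) (inv_mem this.1), ?_⟩
        rw [AddSubgroup.mem_comap, cls_mul (b hh) (inv_mem this.1), cls_inv this.1, ← this.2,
          map_add, map_neg, hT, add_neg_cancel]
        exact zero_mem _
      · change ∑ k ∈ Finset.range p, φ^[k] (cls i x) ∈ K
        refine K.sum_mem fun k _ => ?_
        rw [(h3 k i x (b hx.1)).2, Function.iterate_fixed (hC x hx.2)]
        exact le_sp (hfix H a).1 (inf_le_left.trans b) (cl_le_LH inf_le_right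
          (inf_le_left.trans b)) (cls_mem_cl hx)) h1
  have h4 := hf₃ _ ι _ ⊤ ht hY le_top (hsp ⊤ htop) h2
  refine lcs_eq_bot_of_le hG fun x hx => (cls_eq_zero_iff hx).1 ?_
  exact h4.le (H7.cls_mem_itU _ x hx)

end Cfsg.Agent.H9.Acc
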