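import Cfsg.Agent.H9.Acc2
import Cfsg.Agent.H9.FitRank

/-! Special subgroups for an elementary abelian operator group and bounds on the nilpotency class
of derived subgroups and terms of the lower central series. -/

set_option autoImplicit false

namespace Cfsg.Agent.H9.Acc

open Subgroup Cfsg

universe u

variable {X : Type*} [Group X]

theorem itC_mono {W W' H H' : Subgroup X} (hW : W ≤ W') (h : H ≤ H') (m : ℕ) :
    itC W m H ≤ itC W' m H' := by
  induction m with
  | zero => exact h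
  | succ m ih => exact commutator_mono ih hW

theorem map_itC {Y : Type*} [Group Y] (f : X →* Y) (W H : Subgroup X) (m : ℕ) :
    (itC W m H).map f = itC (W.map f) m (H.map f) := by
  induction m with
  | zero => rfl
  | succ m ih => rw [itC, map_commutator, ih, itC]

theorem dS_mono {C D : Subgroup X} (h : C ≤ D) (s : ℕ) : dS C s ≤ dS D s := by
  induction s with
  | zero => exact h
  | succ s ih => exact commutator_mono ih ih

theorem map_dS {Y : Type*} [Group Y] (f : X →* Y) (C : Subgroup X) (s : ℕ) :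
    (dS C s).map f = dS (C.map f) s := by
  induction s with
  | zero => rfl
  | succ s ih => rw [dS, map_commutator, ih, dS]

theorem dS_add (C : Subgroup X) (s t : ℕ) : dS C (s + t) = dS (dS C s) t := by
  induction t with
  | zero => rfl
  | succ t ih => rw [← add_assoc, dS, ih, dS]

theorem le_normalizer_dS {A C : Subgroup X} (h : A ≤ normalizer (C : Set X)) (s : ℕ) :
    A ≤ normalizer ((dS C s : Subgroup X) : Set X) := by
  induction s with
  | zero => exact h
  | succ s ih => exact H1.le_normalizer_commutator ih ih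

theorem dS_le (C : Subgroup X) (s : ℕ) : dS C s ≤ C := by
  induction s with
  | zero => exact le_rfl
  | succ s ih => exact (H1.commutator_le_of_le_normalizer le_normalizer).trans ih

theorem dS_le_lcs (C : Subgroup X) (s : ℕ) : dS C s ≤ C.lowerCentralSeries s := by
  induction s with
  | zero => exact le_rfl
  | succ s ih => exact commutator_mono ih (dS_le C s)

theorem dS_top (s : ℕ) : dS (⊤ : Subgroup X) s = derivedSeries X s := by
  induction s with
  | zero => rfl
  | succ s ih => rw [dS, ih, derivedSeries_succ]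

/-- invariant subgroups of `G` centralized by a subgroup of index `p` in `A` -/
def base (p : ℕ) (A G : Subgroup X) : Set (Subgroup X) :=
  {H | H ≤ G ∧ A ≤ normalizer (H : Set X) ∧
    ∃ B : Subgroup X, B ≤ A ∧ B.relIndex A = p ∧ H ≤ centralizer (B : Set X)}

/-- members of `base` lying in a commutator of members of two families -/
def nxt (p : ℕ) (A G : Subgroup X) (F F' : Set (Subgroup X)) : Set (Subgroup X) :=
  {H | H ∈ base p A G ∧ ∃ J ∈ F, ∃ K ∈ F', H ≤ ⁅J, K⁆}

theorem nxt_mono {p : ℕ} {A G : Subgroup X} {F₁ F₂ F₁' F₂' : Set (Subgroup X)} (h₁ : F₁ ⊆ F₁')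
    (h₂ : F₂ ⊆ F₂') : nxt p A G F₁ F₂ ⊆ nxt p A G F₁' F₂' :=
  fun _ ⟨h, J, hJ, K, hK, e⟩ => ⟨h, J, h₁ hJ, K, h₂ hK, e⟩

/-- a family of special subgroups for the functor `D` -/
structure Good (p : ℕ) (A G : Subgroup X) (D : Subgroup X → Subgroup X) (e : ℕ)
    (F : Set (Subgroup X)) : Prop where
  mono : ∀ ⦃Y Z : Subgroup X⦄, Y ≤ Z → D Y ≤ D Z
  sub : F ⊆ base p A G
  gen : D G ≤ sSup F
  down : ∀ H ∈ F, ∀ K : Subgroup X, K ≤ H → A ≤ normalizer (K : Set X) → K ∈ F
  idx : ∀ H ∈ F, ∃ B : Subgroup X, B ≤ A ∧ B.relIndex A ≤ p ^ e ∧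
    H ≤ D (G ⊓ centralizer (B : Set X))

/-- standing hypotheses -/
structure Cfg (p : ℕ) (A G : Subgroup X) : Prop where
  hp : p.Prime
  hA : IsElementaryAbelian p A
  ne : A ≠ ⊥
  norm : A ≤ normalizer (G : Set X)
  cop : (Nat.card A).Coprime (Nat.card G)

variable [Finite X] {p : ℕ} {A G : Subgroup X}

theorem Cfg.le_sSup (c : Cfg p A G) {V : Subgroup X} (hV : V ≤ G)
    (hAV : A ≤ normalizer (V : Set X)) : V ≤ sSup {H | H ∈ base p A G ∧ H ≤ V} :=
  H1.le_of_forall_hyperplane c.hp c.hA c.ne hAV (H1.coprime_of_le c.cop le_rfl hV)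
    fun B hB hi => _root_.le_sSup ⟨⟨inf_le_left.trans hV,
      H1.le_normalizer_inf_centralizer_of_comm c.hA.1 hB hAV, B, hB, hi, inf_le_right⟩, inf_le_left⟩

theorem Cfg.good_base (c : Cfg p A G) : Good p A G id 1 (base p A G) where
  mono := fun _ _ h => h
  sub := le_rfl
  gen := (c.le_sSup le_rfl c.norm).trans (sSup_le_sSup fun _ h => h.1)
  down := fun _ ⟨h1, _, B, h2, h3, h4⟩ _ hK hA => ⟨hK.trans h1, hA, B, h2, h3, hK.trans h4⟩
  idx := fun _ ⟨h1, _, B, h2, h3, h4⟩ => ⟨B, h2, by rw [h3, pow_one], le_inf h1 h4⟩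

theorem Cfg.commutator_le (c : Cfg p A G) {F F' : Set (Subgroup X)} (hF : F ⊆ base p A G)
    (hF' : F' ⊆ base p A G) {J K : Subgroup X} (hJ : J ∈ F) (hK : K ∈ F') :
    ⁅J, K⁆ ≤ sSup {H | H ∈ nxt p A G F F' ∧ H ≤ ⁅J, K⁆} :=
  (c.le_sSup ((commutator_mono (hF hJ).1 (hF' hK).1).trans
    (H1.commutator_le_of_le_normalizer le_normalizer))
    (H1.le_normalizer_commutator (hF hJ).2.1 (hF' hK).2.1)).trans
    (sSup_le_sSup fun _ h => ⟨⟨h.1, J, hJ, K, hK, h.2⟩, h.2⟩)

theorem Good.nxt (c : Cfg p A G) {D D' : Subgroup X → Subgroup X} {e e' : ℕ}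
    {F F' : Set (Subgroup X)} (h : Good p A G D e F) (h' : Good p A G D' e' F') (h1 : F ⊆ F')
    (h2 : nxt p A G F F' ⊆ F) :
    Good p A G (fun Y => ⁅D Y, D' Y⁆) (e + e') (nxt p A G F F') where
  mono := fun _ _ hY => commutator_mono (h.mono hY) (h'.mono hY)
  sub := fun _ hH => hH.1
  gen := by
    have a1 : ∀ J ∈ F, ∀ K ∈ F', ⁅J, K⁆ ≤ sSup (Acc.nxt p A G F F') := fun J hJ K hK =>
      (c.commutator_le h.sub h'.sub hJ hK).trans (sSup_le_sSup fun _ h => h.1)
    have a2 : ∀ K ∈ F', K ≤ normalizer ((sSup (Acc.nxt p A G F F') : Subgroup X) : Set X) :=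
      fun K hK => by
        rw [le_normalizer_iff_commutator_le_right]
        conv_lhs => rw [sSup_eq_iSup']
        refine H1.commutator_iSup_le (fun H => (le_sSup H.2).trans le_normalizer) fun H => ?_
        rw [commutator_comm]
        exact a1 _ (h2 H.2) K hK
    refine (commutator_mono h.gen h'.gen).trans ?_
    rw [sSup_eq_iSup' F', sSup_eq_iSup' F]
    refine H1.commutator_iSup_le (fun K => a2 _ K.2) fun K => ?_
    rw [commutator_comm]
    refine H1.commutator_iSup_le (fun J => a2 _ (h1 J.2)) fun J => ?_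
    rw [commutator_comm]
    exact a1 _ J.2 _ K.2
  down := fun _ ⟨hH, J, hJ, K, hK, e⟩ U hU hA =>
    ⟨c.good_base.down _ hH U hU hA, J, hJ, K, hK, hU.trans e⟩
  idx := fun _ ⟨_, J, hJ, K, hK, e⟩ => by
    obtain ⟨B, b1, b2, b3⟩ := h.idx J hJ
    obtain ⟨B', b1', b2', b3'⟩ := h'.idx K hK
    refine ⟨B ⊓ B', inf_le_left.trans b1, relIndex_inf_le.trans ?_, e.trans (commutator_mono
      (b3.trans (h.mono (inf_le_inf_left _ (centralizer_le (SetLike.coe_mono inf_le_left)))))
      (b3'.trans (h'.mono (inf_le_inf_left _ (centralizer_le (SetLike.coe_mono inf_le_right))))))⟩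
    rw [pow_add]
    exact Nat.mul_le_mul b2 b2'

theorem Cfg.exists_dS (c : Cfg p A G) (d : ℕ) :
    ∃ F, Good p A G (fun Y => dS Y d) (2 ^ d) F ∧ nxt p A G F F ⊆ F := by
  induction d with
  | zero => exact ⟨_, c.good_base, fun _ h => h.1⟩
  | succ d ih =>
    obtain ⟨F, h1, h2⟩ := ih
    refine ⟨_, ?_, nxt_mono h2 h2⟩
    rw [pow_succ, mul_two]
    exact h1.nxt c h1 le_rfl h2

theorem Cfg.exists_lcs (c : Cfg p A G) (d : ℕ) :
    ∃ F, Good p A G (fun Y => Y.lowerCentralSeries d) (d + 1) F ∧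
      nxt p A G F (base p A G) ⊆ F := by
  induction d with
  | zero => exact ⟨_, c.good_base, fun _ h => h.1⟩
  | succ d ih =>
    obtain ⟨F, h1, h2⟩ := ih
    exact ⟨_, h1.nxt c c.good_base h1.sub h2, nxt_mono h2 le_rfl⟩

theorem itC_eq_bot {D : Subgroup X → Subgroup X} (hD : ∀ ⦃Y Z : Subgroup X⦄, Y ≤ Z → D Y ≤ D Z)
    (hD' : ∀ Y, Y ≤ normalizer (D Y : Set X)) {e c : ℕ} (hp : p.Prime)
    (he : p ^ (e + 2) ≤ Nat.card A)
    (hc : ∀ a ∈ A, a ≠ 1 → (D (G ⊓ centralizer {a})).lowerCentralSeries c = ⊥)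
    {B B' : Subgroup X} (hB : B ≤ A) (hi : B.relIndex A ≤ p ^ e) (hi' : B'.relIndex A = p) :
    itC (D (G ⊓ centralizer (B : Set X))) (c + 1)
      (G ⊓ centralizer ((B ⊓ B' : Subgroup X) : Set X)) = ⊥ := by
  have h1 : B ⊓ B' ≠ ⊥ := fun h => by
    have h2 := relIndex_inf_le (H := B) (K := B') (L := A)
    rw [h, relIndex_bot_left, hi'] at h2
    have h3 := he.trans (h2.trans (Nat.mul_le_mul_right p hi))
    rw [← pow_succ, Nat.pow_le_pow_iff_right hp.one_lt] at h3
    omega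
  obtain ⟨⟨a, ha⟩, ha1⟩ := ne_bot_iff_exists_ne_one.mp h1
  have h2 : ∀ U : Subgroup X, a ∈ U → G ⊓ centralizer (U : Set X) ≤ G ⊓ centralizer {a} :=
    fun U hU => inf_le_inf_left _ (centralizer_le (by simpa using hU))
  rw [← le_bot_iff, ← hc a (hB ha.1) fun h => ha1 (Subtype.ext h)]
  clear hc
  induction c with
  | zero =>
    exact (commutator_mono (h2 _ ha) (hD (h2 _ ha.1))).trans
      (le_normalizer_iff_commutator_le_right.mp (hD' _))
  | succ c ih => exact commutator_mono ih (hD (h2 _ ha.1))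

theorem Good.isNilpotent (cf : Cfg p A G) {D : Subgroup X → Subgroup X} {e m : ℕ}
    {F : Set (Subgroup X)} (h : Good p A G D e F) (hG : Group.IsSolvable G) [(D G).Normal]
    (hD : ∀ Y, D Y ≤ Y)
    (hm : ∀ B B' : Subgroup X, B ≤ A → B.relIndex A ≤ p ^ e → B'.relIndex A = p →
      itC (D (G ⊓ centralizer (B : Set X))) m
        (G ⊓ centralizer ((B ⊓ B' : Subgroup X) : Set X)) = ⊥) :
    Group.IsNilpotent (D G) := by
  have hnorm : ∀ (B K : Subgroup X) [K.Normal], B ≤ normalizer (K : Set X) := fun B K _ =>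
    le_top.trans (normalizer_eq_top K).ge
  rw [← nres_eq_bot_iff, ← le_bot_iff]
  by_contra hc
  obtain ⟨M, hMn, -, hM, hmax⟩ := exists_max_normal_not_le hc
  set π := QuotientGroup.mk' M with hπ
  have hRG : nres (D G) ≤ G := (nres_le _).trans (hD G)
  have hV := isMinNormal_map_of_max hM hmax
  haveI : Group.IsSolvable ((nres (D G)).map π) := H1.isSolvable_map π (H1.isSolvable_of_le hRG hG)
  obtain ⟨q, hq, hVq⟩ := hV.exists_isPGroup
  haveI hVn : ((nres (D G)).map π).Normal := hV.1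
  haveI hRn : ((D G).map π).Normal := Normal.map inferInstance _ (QuotientGroup.mk'_surjective M)
  have key : ∀ U P : Subgroup X, ⁅U.map π, P.map π⁆ = ⊥ ↔ ⁅U, P⁆ ≤ M := fun U P => by
    rw [← map_commutator, Subgroup.map_eq_bot_iff, QuotientGroup.ker_mk']
  refine hM ((commutator_nres (D G)).ge.trans ((commutator_mono le_rfl h.gen).trans ?_))
  rw [sSup_eq_iSup']
  refine H1.commutator_iSup_le (fun _ => hnorm _ _) fun H =>
    H1.commutator_le_of_forall_isPGroup (hnorm _ _) fun r hr P hPH hPr => ?_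
  obtain ⟨B, b1, b2, b3⟩ := h.idx _ H.2
  by_cases hrq : r = q
  · subst hrq
    rw [← key, H1.commutator_eq_bot_iff_le_centralizer']
    rw [map_nres] at hV hVq ⊢
    exact le_centralizer_nres_of_isMinNormal hr hV hVq
      (map_mono ((hPH.trans b3).trans (h.mono inf_le_left))) (hPr.map π)
  rw [commutator_comm]
  refine (commutator_mono le_rfl (cf.le_sSup hRG (hnorm _ _))).trans ?_
  rw [sSup_eq_iSup']
  refine H1.commutator_iSup_le (fun _ => hnorm _ _) fun U => ?_
  obtain ⟨U, ⟨-, -, B', -, c2, c3⟩, hUR⟩ := U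
  set W := nres (D G) ⊓ centralizer ((B ⊓ B' : Subgroup X) : Set X) with hW
  have hUW : U ≤ W := le_inf hUR (c3.trans (centralizer_le (SetLike.coe_mono inf_le_right)))
  have hPW : P ≤ normalizer (W : Set X) := H1.le_normalizer_inf (hnorm _ _)
    (((((hPH.trans b3).trans (hD _)).trans inf_le_right).trans
      (centralizer_le (SetLike.coe_mono inf_le_left))).trans le_normalizer)
  rw [commutator_comm]
  refine (commutator_mono hUW le_rfl).trans ((key _ _).mp (le_bot_iff.mp ?_))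
  haveI := Fact.mk hr
  haveI := Fact.mk hq
  refine (H1.commutator_le_of_chain ((map_mono hPW).trans (le_normalizer_map π))
    (IsPGroup.coprime_card_of_ne r q hrq _ _ (hPr.map π) (hVq.to_le (map_mono inf_le_left)))
    (fun j => (itC (D (G ⊓ centralizer (B : Set X))) j
      (G ⊓ centralizer ((B ⊓ B' : Subgroup X) : Set X))).map π)
    (map_mono (inf_le_inf_right _ hRG)) m fun j _ => ?_).trans ?_
  · rw [← map_commutator]
    exact map_mono (commutator_mono le_rfl (hPH.trans b3))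
  · rw [hm B B' b1 b2 c2, Subgroup.map_bot]

omit [Finite X] in
theorem le_sSup_of_map {N : Subgroup X} {U : Subgroup N} {S : Set (Subgroup X)}
    {S' : Set (Subgroup N)} (h : U.map N.subtype ≤ sSup S) (hS : ∀ H ∈ S, H ≤ N)
    (hS' : ∀ H : Subgroup N, H.map N.subtype ∈ S → H ∈ S') : U ≤ sSup S' :=
  map_subtype_le_map_subtype.mp (h.trans (sSup_le fun H hH =>
    (map_subgroupOf_eq_of_le (hS H hH)).ge.trans (map_mono (le_sSup (hS' _
      (by rwa [map_subgroupOf_eq_of_le (hS H hH)]))))))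

theorem main_bound (p k c s : ℕ) : ∃ f : ℕ, ∀ (X : Type u) [Group X] [Finite X]
    (A G : Subgroup X) (D : Subgroup X → Subgroup X) (e : ℕ) (F : Set (Subgroup X)),
    Cfg p A G → Good p A G D e F → nxt p A G F F ⊆ F → Group.IsSolvable G → (D G).Normal →
    (∀ Y, D Y ≤ Y) → (∀ Y, Y ≤ normalizer (D Y : Set X)) → (∀ Y, dS Y s ≤ D Y) →
    Nat.card A = p ^ k → e + 2 ≤ k →
    (∀ a ∈ A, a ≠ 1 → (D (G ⊓ centralizer {a})).lowerCentralSeries c = ⊥) →
    (D G).lowerCentralSeries f = ⊥ := by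
  by_cases hp : p.Prime
  swap
  · exact ⟨0, fun X _ _ A G D e F cf => absurd cf.hp hp⟩
  haveI := Fact.mk hp
  obtain ⟨f, hf⟩ := lcs_bound.{u} p (2 ^ p ^ k) (c + 1) (s + c)
  refine ⟨f, fun X _ _ A G D e F cf h hn hG _ hD hD' hs hk he hc => ?_⟩
  have hm := fun B B' : Subgroup X => itC_eq_bot (B := B) (B' := B') h.mono hD' hp
    (hk ▸ Nat.pow_le_pow_right hp.pos he) hc
  have hFN : ∀ H ∈ F, H ≤ D G := fun H hH => by
    obtain ⟨B, -, -, b⟩ := h.idx H hH
    exact b.trans (h.mono inf_le_left)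
  obtain ⟨⟨a, ha⟩, ha1⟩ := ne_bot_iff_exists_ne_one.mp cf.ne
  replace ha1 : a ≠ 1 := fun h => ha1 (Subtype.ext h)
  have hα : ∀ (j : ℕ) (x : D G), (((MulAut.conjNormal a).toMonoidHom^[j] x : D G) : X) =
      a ^ j * x * (a ^ j)⁻¹ := fun j x => by
    induction j with
    | zero => simp
    | succ j ih =>
      rw [Function.iterate_succ_apply']
      refine (MulAut.conjNormal_apply a _).trans ?_
      rw [ih]
      group
  have hcop : p.Coprime (Nat.card (D G)) := by
    have := H1.coprime_of_le cf.cop le_rfl (hD G)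
    rw [hk] at this
    exact this.coprime_dvd_left (dvd_pow_self p (by omega))
  rw [← top_subtype_lowerCentralSeries, hf (D G) (h.isNilpotent cf hG hD hm)
    (MulAut.conjNormal a).toMonoidHom (fun x => Subtype.ext (by rw [hα, cf.hA.2 a ha]; simp))
    (p ^ ((Nat.card (D G)).totient - 1)) (fun x => ?_) {H | H.map (D G).subtype ∈ F}
    {B : Subgroup X // B ≤ A ∧ B.relIndex A ≤ p ^ e}
    (fun B => (D (G ⊓ centralizer (B.1 : Set X))).subgroupOf (D G))
    ((centralizer {a}).subgroupOf (D G)) ?_ ?_ ?_ ?_ ?_ ?_ ?_ ?_, Subgroup.map_bot]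
  · have e1 : Nat.card (Set A) = 2 ^ Nat.card A := by
      let _ := Fintype.ofFinite A
      rw [Nat.card_eq_fintype_card, Nat.card_eq_fintype_card, Fintype.card_set]
    rw [← hk, ← e1]
    refine Nat.card_le_card_of_injective (fun B => (B.1.subgroupOf A : Set A)) fun B B' hB => ?_
    refine Subtype.ext ?_
    rw [← map_subgroupOf_eq_of_le B.2.1, ← map_subgroupOf_eq_of_le B'.2.1,
      SetLike.coe_injective hB]
  · exact le_sSup_of_map ((map_subtype_le _).trans h.gen) hFN fun _ h => h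
  · refine fun H hH K hK => le_sSup_of_map (S := {J | J ∈ F ∧ J ≤ ⁅H, K⁆.map (D G).subtype}) ?_
      (fun J hJ => hFN J hJ.1) fun J hJ => ⟨hJ.1, map_subtype_le_map_subtype.mp hJ.2⟩
    rw [map_commutator]
    exact (cf.commutator_le h.sub h.sub hH hK).trans (sSup_le_sSup fun _ hJ => ⟨hn hJ.1, hJ.2⟩)
  · intro H hH
    obtain ⟨B, b1, b2, b3⟩ := h.idx _ hH
    exact ⟨⟨B, b1, b2⟩, map_le_iff_le_comap.mp b3⟩
  · intro B H hH
    obtain ⟨h1, -, B', -, c2, c3⟩ := h.sub hH
    rw [← le_bot_iff, ← map_subtype_le_map_subtype, map_itC, Subgroup.map_bot,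
      ← hm B.1 B' B.2.1 B.2.2 c2]
    exact itC_mono (map_comap_le _ _)
      (le_inf h1 (c3.trans (centralizer_le (SetLike.coe_mono inf_le_right)))) _
  · intro x hx
    refine Subtype.ext ?_
    rw [MulEquiv.coe_toMonoidHom, MulAut.conjNormal_apply,
      ← mem_centralizer_singleton_iff.mp (mem_subgroupOf.mp hx), mul_inv_cancel_right]
  · intro H hH
    obtain ⟨h1, h2, -⟩ := h.sub hH
    have e1 : (H ⊓ (centralizer {a}).subgroupOf (D G)).map (D G).subtype =
        H.map (D G).subtype ⊓ centralizer {a} := by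
      rw [map_inf _ _ _ (D G).subtype_injective, subgroupOf_map_subtype, ← inf_assoc]
      exact inf_eq_left.mpr (inf_le_left.trans (map_subtype_le _))
    refine ⟨?_, ?_⟩
    · rw [Set.mem_setOf_eq, e1]
      exact h.down _ hH _ inf_le_left
        (H1.le_normalizer_inf_centralizer_singleton_of_comm cf.hA.1 ha h2)
    · rw [← map_subtype_le_map_subtype, Subgroup.map_sup, e1]
      refine (H1.commutator_sup_centralizer ((zpowers_le.mpr ha).trans h2)
        (H1.coprime_of_le cf.cop (zpowers_le.mpr ha) h1)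
        (Or.inr (H1.isSolvable_of_le h1 hG))).ge.trans (sup_le_sup (commutator_le.2 ?_) ?_)
      · rintro _ ⟨x, hx, rfl⟩ y hy
        obtain ⟨j, rfl⟩ := (mem_powers_iff_mem_zpowers.mpr hy)
        refine ⟨_, subset_closure ⟨x, hx, j, rfl⟩, ?_⟩
        simp only [map_mul, map_inv, coe_subtype, hα, commutatorElement_def]
        group
      · exact inf_le_inf_left _ (centralizer_le (by simp))
  · rw [← le_bot_iff, ← map_subtype_le_map_subtype, map_dS, Subgroup.map_bot, ← hc a ha ha1,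
      dS_add]
    refine (dS_mono ((dS_mono ?_ s).trans (hs _)) c).trans (dS_le_lcs _ c)
    rw [subgroupOf_map_subtype, inf_comm]
    exact inf_le_inf_right _ (hD G)
  · rw [← pow_succ, Nat.sub_add_cancel (Nat.totient_pos.2 Nat.card_pos)]
    conv_rhs => rw [← pow_one x]
    exact pow_eq_pow_iff_modEq.2 ((Nat.ModEq.pow_totient hcop).of_dvd (orderOf_dvd_natCard x))

theorem aut_bound (p k c s e : ℕ) (hp : p.Prime) (hk : 3 ≤ k) (he : e + 2 ≤ k)
    (D : ∀ (X : Type) [Group X], Subgroup X → Subgroup X)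
    (hmap : ∀ (X Y : Type) [Group X] [Group Y] (f : X →* Y) (H : Subgroup X),
      (D X H).map f = D Y (H.map f))
    (hD : ∀ (X : Type) [Group X] (Y : Subgroup X), D X Y ≤ Y ∧ dS Y s ≤ D X Y)
    (hF : ∀ (X : Type) [Group X] [Finite X] (A G : Subgroup X), Cfg p A G →
      ∃ F, Good p A G (D X) e F ∧ nxt p A G F F ⊆ F)
    (hS : ∀ (X : Type) [Group X] [Finite X] (B H : Subgroup X), IsElementaryAbelian p B →
      p ^ 3 ≤ Nat.card B → B ≤ normalizer (H : Set X) → (Nat.card H).Coprime p →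
      (∀ b ∈ B, b ≠ 1 → Group.IsSolvable ↥(H ⊓ centralizer ({b} : Set X))) →
      Group.IsSolvable H) :
    ∃ B : ℕ, ∀ (G : Type) [Group G] [Finite G], (Nat.card G).Coprime p →
      ∀ A : Subgroup (MulAut G), IsElementaryAbelian p A → Nat.card A = p ^ k →
        (∀ a ∈ A, a ≠ 1 → (D (fixedSubgroup a) ⊤).lowerCentralSeries c = ⊥) →
        (D G ⊤).lowerCentralSeries B = ⊥ := by
  obtain ⟨f, hf⟩ := main_bound.{0} p k c s
  refine ⟨f, fun G _ _ hcop A hA hk' hc => ?_⟩
  have hn : ∀ (X : Type) [Group X] (Y : Subgroup X),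
      normalizer (Y : Set X) ≤ normalizer (D X Y : Set X) := fun X _ Y g hg => by
    rw [mem_normalizer_iff_map_conj] at hg ⊢
    rw [hmap, hg]
  have hE : IsElementaryAbelian p (H1.sdR A.subtype ⊤) := by
    refine ⟨H1.isMulCommutative_sdR.mpr (haveI := hA.1; inferInstance), ?_⟩
    rintro _ ⟨a, -, rfl⟩
    rw [← map_pow, show a ^ p = 1 from Subtype.ext (hA.2 a a.2), map_one]
  have hcard : Nat.card (H1.sdR A.subtype ⊤) = p ^ k := by rw [H1.card_sdR_top, hk']
  have cf : Cfg p (H1.sdR A.subtype ⊤) (H1.sdL A.subtype ⊤) :=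
    ⟨hp, hE, fun h => by
      rw [h, card_bot] at hcard
      exact (Nat.one_lt_pow (by omega) hp.one_lt).ne hcard,
      H1.sdR_le_normalizer_top ⊤, H1.coprime_sd (by rw [hk']; exact hcop.symm.pow_left k)⟩
  have hc' : ∀ a ∈ H1.sdR A.subtype ⊤, a ≠ 1 →
      (D _ (H1.sdL A.subtype ⊤ ⊓ centralizer {a})).lowerCentralSeries c = ⊥ := by
    rintro _ ⟨a, -, rfl⟩ ha
    rw [sdL_top_inf_centralizer_inr, H1.sdL, ← hmap, ← (fixedSubgroup (A.subtype a)).range_subtype,
      MonoidHom.range_eq_map, ← hmap, ← map_lowerCentralSeries, ← map_lowerCentralSeries]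
    rw [show (D (fixedSubgroup (A.subtype a)) ⊤).lowerCentralSeries c = ⊥ from
      hc a a.2 fun h => ha (by rw [show a = 1 from Subtype.ext h, map_one]), Subgroup.map_bot,
      Subgroup.map_bot]
  have hsol := hS _ _ (H1.sdL A.subtype ⊤) hE (hcard ▸ Nat.pow_le_pow_right hp.pos hk)
    cf.norm (by rwa [H1.card_sdL_top]) fun b hb hb1 => ⟨s + c, by
      rw [← le_bot_iff, ← map_subtype_le_map_subtype, ← dS_top, map_dS, Subgroup.map_bot,
        ← MonoidHom.range_eq_map, range_subtype, ← hc' b hb hb1, dS_add]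
      exact (dS_mono (hD _ _).2 c).trans (dS_le_lcs _ c)⟩
  obtain ⟨F, h1, h2⟩ := hF _ _ _ cf
  have := hf _ _ _ _ e F cf h1 h2 hsol (normalizer_eq_top_iff.mp (eq_top_iff.mpr
    ((normalizer_eq_top _).ge.trans (hn _ _)))) (fun Y => (hD _ Y).1)
    (fun Y => le_normalizer.trans (hn _ Y)) (fun Y => (hD _ Y).2) hcard he hc'
  rwa [H1.sdL, ← hmap, ← map_lowerCentralSeries,
    map_eq_bot_iff_of_injective _ SemidirectProduct.inl_injective] at this

end Cfsg.Agent.H9.Acc
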