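import Cfsg.Agent.H9.ZTB
import Cfsg.Agent.FT.Final
import Cfsg.Agent.P1.ZStar
import Cfsg.Agent.L.SimpleRed

/-! Groups with a Frobenius system on their maximal solvable subgroups. -/

set_option autoImplicit false

namespace Cfsg.Agent.H9

open Subgroup Cfsg Cfsg.Agent.FT
open scoped Pointwise commutatorElement

universe u

variable {G : Type u} [Group G] [Finite G]

theorem exists_max_solvable {H : Subgroup G} (hH : Group.IsSolvable H) :
    ∃ M : Subgroup G, H ≤ M ∧ Group.IsSolvable M ∧ ∀ M', M < M' → ¬ Group.IsSolvable M' := by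
  obtain ⟨M, ⟨h1, h2⟩, hM⟩ := (wellFounded_gt (α := Subgroup G)).has_min
    {M | H ≤ M ∧ Group.IsSolvable M} ⟨H, le_rfl, hH⟩
  exact ⟨M, h1, h2, fun M' h h' => hM M' ⟨h1.trans h.le, h'⟩ h⟩

theorem isSolvable_normalizer_sylow_two (T : Sylow 2 G) :
    Group.IsSolvable 𝐍((T : Subgroup G)) := by
  refine L.isSolvable_of_normal_of_quotient ((T : Subgroup G).subgroupOf 𝐍((T : Subgroup G)))
    (H1.isSolvable_of_isPGroup T.isPGroup'.comap_subtype) (feit_thompson _ ?_)
  rw [← Nat.not_even_iff_odd, even_iff_two_dvd]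
  exact fun h => T.not_dvd_index (h.trans (relIndex_dvd_index_of_le le_normalizer))

theorem isSolvable_of_normalizer_le_centralizer_two (T : Sylow 2 G)
    (h : 𝐍((T : Subgroup G)) ≤ 𝐂((T : Subgroup G))) : Group.IsSolvable G := by
  have hc := MonoidHom.ker_transferSylow_isComplement' T h
  refine L.isSolvable_of_normal_of_quotient (MonoidHom.transferSylow T h).ker
    (feit_thompson _ ?_) (H1.isSolvable_of_isPGroup (p := 2) ?_)
  · rw [← hc.index_eq_card, ← Nat.not_even_iff_odd, even_iff_two_dvd]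
    exact T.not_dvd_index
  · obtain ⟨k, hk⟩ := IsPGroup.iff_card.mp T.isPGroup'
    exact IsPGroup.of_card (hc.symm.index_eq_card.trans hk)

theorem exists_conj_mem_sylow_two (T : Sylow 2 G) {s u : G} (hs : s * s = 1) (hu : u * u = 1)
    (h : Commute s u) : ∃ g : G, g * s * g⁻¹ ∈ T ∧ g * u * g⁻¹ ∈ T := by
  have h2 : ∀ x : G, x * x = 1 → IsPGroup 2 (zpowers x) := fun x hx => by
    obtain ⟨k, -, hk⟩ := (Nat.dvd_prime_pow Nat.prime_two (m := 1)).mp
      (orderOf_dvd_of_pow_eq_one (x := x) (by rw [pow_one, pow_two, hx]))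
    exact IsPGroup.of_card ((Nat.card_zpowers x).trans hk)
  obtain ⟨g, -, hg⟩ := H1.exists_conj_le_sylow T.isPGroup' (H := ⊤)
    (by rw [relIndex_top_right]; exact T.not_dvd_index) le_top
    (IsPGroup.to_sup_of_normal_right' (h2 s hs) (h2 u hu) (zpowers_le.mpr
      (centralizer_le_normalizer _ (by
        rw [zpowers_eq_closure, centralizer_closure]
        exact mem_centralizer_singleton_iff.mpr h))))
  exact ⟨g, H1.map_conj_le_iff.mp hg _ (mem_sup_left (mem_zpowers s)),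
    H1.map_conj_le_iff.mp hg _ (mem_sup_right (mem_zpowers u))⟩

theorem isSolvable_or_ZT (F : Subgroup G → Subgroup G)
    (h : ∀ M : Subgroup G, (Group.IsSolvable M ∧ ∀ M' : Subgroup G, M < M' →
      ¬ Group.IsSolvable M') → F M ≤ M ∧ M ≤ normalizer (F M : Set G) ∧
      (∀ a ∈ M, a ∉ F M → ∀ x ∈ F M, x * a = a * x → x = 1) ∧
      (∀ g : G, g ∉ M → F M ⊓ (MulAut.conj g • F M) = ⊥) ∧ (F M ≠ ⊥ ∨ IsMulCommutative M)) :
    Group.IsSolvable G ∨ ∃ (Q H : Subgroup G) (t : G), P2.ZT Q H t := by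
  refine or_iff_not_imp_left.mpr fun hG => ?_
  obtain ⟨T⟩ := (inferInstance : Nonempty (Sylow 2 G))
  obtain ⟨M, hTM, hM, hmax⟩ := exists_max_solvable (isSolvable_normalizer_sylow_two T)
  obtain ⟨h1, h2, h3, h4, h5⟩ := h M ⟨hM, hmax⟩
  have hQ : F M ≠ ⊥ := h5.resolve_right fun hc => hG
    (isSolvable_of_normalizer_le_centralizer_two T fun x hx y hy => congrArg Subtype.val
      (hc.is_comm.comm (⟨y, hTM (le_normalizer hy)⟩ : M) ⟨x, hTM hx⟩))
  have hti : ∀ x ∈ F M, x ≠ 1 → ∀ g : G, g * x * g⁻¹ ∈ F M → g ∈ M := fun x hx x1 g hg => by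
    by_contra hc
    exact x1 (conj_eq_one_iff.mp (mem_bot.mp ((h4 g hc).le ⟨hg, smul_mem_pointwise_smul _ _ _ hx⟩)))
  have hcent : ∀ x ∈ F M, x ≠ 1 → ∀ y, Commute x y → y ∈ F M := fun x hx x1 y hy => by
    by_contra hc
    exact x1 (h3 y (hti x hx x1 y (by rwa [← hy.eq, mul_inv_cancel_right])) hc x hx hy)
  have hMt : ¬ ∀ g, g ∈ M := fun hc => hG (by
    rw [show M = ⊤ from eq_top_iff.mpr fun g _ => hc g] at hM
    exact L.isSolvable_of_mulEquiv topEquiv)
  have hR : ∀ N : Subgroup G, N.Normal → Group.IsSolvable N → N = ⊥ := fun N _ hN => by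
    by_contra hc
    obtain ⟨V, hV, hVN⟩ := L.exists_isMinNormal_le N hc
    haveI := hV.1
    haveI := H1.isSolvable_of_le hVN hN
    have hVc := hV.isMulCommutative_of_isSolvable
    have hVM : V ≤ M := by
      by_contra hc'
      exact hmax (M ⊔ V) (left_lt_sup.mpr hc') (L.isSolvable_sup_of_normal M V hM inferInstance)
    obtain ⟨⟨x, hx⟩, x1⟩ := ne_bot_iff_exists_ne_one.mp hQ
    obtain ⟨⟨v, hv⟩, v1⟩ := ne_bot_iff_exists_ne_one.mp hV.2.1
    replace x1 : x ≠ 1 := fun e => x1 (Subtype.ext e)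
    replace v1 : v ≠ 1 := fun e => v1 (Subtype.ext e)
    have hVQ : V ≤ F M := fun w hw => by
      by_cases e : ⁅w, x⁆ = 1
      · exact hcent x hx x1 w (commutatorElement_eq_one_iff_commute.mp e).symm
      · refine hcent _ (le_normalizer_iff_commutator_le_right.mp (hVM.trans h2)
          (commutator_mem_commutator hw hx)) e w (congrArg Subtype.val (hVc.is_comm.comm
            (⟨_, commutator_le_left V (F M) (commutator_mem_commutator hw hx)⟩ : V) ⟨w, hw⟩))
    exact hMt fun g => hti v (hVQ hv) v1 g (hVQ (hV.1.conj_mem v hv g))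
  have hBS : ∀ s : G, s * s = 1 → s ≠ 1 → ∃ u, u * u = 1 ∧ u ≠ 1 ∧ Commute s u ∧ u ≠ s :=
    fun s hs s1 => by
      by_contra! hc
      have hO := hR (pPrimeCore 2 G) inferInstance (feit_thompson _
        (Nat.coprime_two_right.mp (L.coprime_card_pPrimeCore 2)))
      have hz : s ∈ center G := mem_center_iff.mpr fun g =>
        (commutatorElement_eq_one_iff_commute.mp (mem_bot.mp (hO ▸ P1.brauer_suzuki
          (orderOf_eq_prime (by rw [pow_two, hs]) s1) (fun u hu hsu => hc u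
            (by rw [← pow_two, ← hu, pow_orderOf_eq_one])
            (fun e => by rw [e, orderOf_one] at hu; omega) hsu) g))).symm
      exact s1 (mem_bot.mp (hR (center G) inferInstance
        (H1.isSolvable_of_isMulCommutative inferInstance) ▸ hz))
  rcases Nat.even_or_odd 𝐨(F M) with he | ho
  · obtain ⟨⟨s, hs⟩, hs2⟩ := exists_prime_orderOf_dvd_card' 2 he.two_dvd
    have hss : s * s = 1 := by
      rw [← pow_two, ← hs2]; exact congrArg Subtype.val (pow_orderOf_eq_one (⟨s, hs⟩ : F M))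
    have s1 : s ≠ 1 := fun e => by
      rw [show (⟨s, hs⟩ : F M) = 1 from Subtype.ext e, orderOf_one] at hs2; omega
    obtain ⟨u, u1, u2, u3, u4⟩ := hBS s hss s1
    obtain ⟨H, t, hZ, -⟩ := CTI.exists_ZT ⟨fun x hx x1 y hy => hcent x hx x1 y
      (mem_centralizer_singleton_iff.mp hy).symm, fun x hx x1 g hg => h2 (hti x hx x1 g hg), he⟩
      (fun hn => hMt fun g => hti s hs s1 g (hn.conj_mem s hs g)) hs s1 hss
      (hcent s hs s1 u u3) u2 u1 u4.symm
    exact ⟨_, H, t, hZ⟩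
  exfalso
  obtain ⟨s, hs2⟩ := exists_prime_orderOf_dvd_card' (G := G) 2 (even_iff_two_dvd.mp
    (Nat.not_odd_iff_even.mp fun hodd => hG (feit_thompson G hodd)))
  have hss : s * s = 1 := by rw [← pow_two, ← hs2, pow_orderOf_eq_one]
  have s1 : s ≠ 1 := fun e => by rw [e, orderOf_one] at hs2; omega
  obtain ⟨u, u1, u2, u3, u4⟩ := hBS s hss s1
  obtain ⟨g, g1, g2⟩ := exists_conj_mem_sylow_two T hss u1 u3
  have hinv : ∀ a : G, a * a = 1 → a ≠ 1 → g * a * g⁻¹ ∈ T → ∀ x ∈ F M,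
      g * a * g⁻¹ * x * (g * a * g⁻¹) = x⁻¹ := fun a a1 a2 a3 => by
    have e : g * a * g⁻¹ * (g * a * g⁻¹) = 1 := by rw [conj_mul, a1, mul_one, mul_inv_cancel]
    refine L.inverts_of_fpf e (h2 (hTM (le_normalizer a3))) fun x hx hc => ?_
    by_contra x1
    exact a2 (conj_eq_one_iff.mp (L.eq_one_of_sq_of_odd ho (hcent x hx x1 _ hc.symm) e))
  obtain ⟨⟨x, hx⟩, x1⟩ := ne_bot_iff_exists_ne_one.mp hQ
  have hsu : g * (s * u) * g⁻¹ ∈ F M := hcent x hx (fun e => x1 (Subtype.ext e)) _ (by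
    have e1 := hinv s hss s1 g1 _ (inv_mem hx)
    have e2 := hinv u u1 u2 g2 _ hx
    rw [inv_inv] at e1
    calc x * (g * (s * u) * g⁻¹) = g * s * g⁻¹ * x⁻¹ * g * (s * s) * u * g⁻¹ := by
          conv_lhs => rw [← e1]
          group
      _ = g * s * u * g⁻¹ * x * g * (u * u) * g⁻¹ := by rw [hss, ← e2]; group
      _ = g * (s * u) * g⁻¹ * x := by rw [u1]; group)
  have := conj_eq_one_iff.mp (L.eq_one_of_sq_of_odd ho hsu (by
    rw [conj_mul, mul_assoc s, ← mul_assoc u, ← u3.eq, mul_assoc s, u1, mul_one, hss, mul_one,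
      mul_inv_cancel]))
  exact u4 (by rw [← L.inv_eq_self_of_mul_self hss, eq_inv_of_mul_eq_one_right this])

end Cfsg.Agent.H9
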